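import Cfsg.Agent.SP.Basic

/-!
# S5755, positive rows: objects up to sign (helper22)

`Γ` acts on `X` by `act`, `ν : X → X` commutes with the subgroup `H ≥ T`.  `A` is the stabiliser in `T` of the pair
`{x₀, ν x₀}`, `B` the stabiliser of `x₀`.  If every automorphism of `T` is a conjugation by an element of `H` and every
`y = h x₀` is `Good` (some `g ∈ T` exchanges `x₀`, `ν x₀` and keeps `{y, ν y}`) then `(A, B)` is a pair.
-/

set_option autoImplicit false

namespace Cfsg.Agent.SP.PM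

variable {Γ X : Type*} [Group Γ]

/-- the data of an action with a sign -/
structure Dat (H T : Subgroup Γ) (act : Γ → X → X) (ν : X → X) (x₀ : X) : Prop where
  le : T ≤ H
  one : ∀ x, act 1 x = x
  mul : ∀ g h x, act (g * h) x = act g (act h x)
  comm : ∀ h ∈ H, ∀ x, act h (ν x) = ν (act h x)
  nn : ν (ν x₀) = x₀
  ne : ν x₀ ≠ x₀

/-- some element of `T` exchanges `x₀`, `ν x₀` and keeps the pair `{y, ν y}` -/
def Good (T : Subgroup Γ) (act : Γ → X → X) (ν : X → X) (x₀ y : X) : Prop :=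
  ∃ g ∈ T, act g x₀ = ν x₀ ∧ (act g y = y ∨ act g y = ν y)

variable {H T : Subgroup Γ} {act : Γ → X → X} {ν : X → X} {x₀ : X}

theorem Dat.inv_act (D : Dat H T act ν x₀) (g : Γ) (x : X) : act g⁻¹ (act g x) = x := by
  rw [← D.mul, inv_mul_cancel, D.one]

theorem Dat.act_inv (D : Dat H T act ν x₀) (g : Γ) (x : X) : act g (act g⁻¹ x) = x := by
  rw [← D.mul, mul_inv_cancel, D.one]

theorem Dat.inv_pm (D : Dat H T act ν x₀) {a : Γ} (ha : a ∈ T) (h : act a x₀ = x₀ ∨ act a x₀ = ν x₀) :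
    act a⁻¹ x₀ = x₀ ∨ act a⁻¹ x₀ = ν x₀ := by
  rcases h with h | h
  · left
    conv_lhs => rw [← h]
    exact D.inv_act a x₀
  · right
    conv_lhs => rw [← D.nn, D.comm _ (H.inv_mem (D.le ha)), ← h, D.inv_act]

/-- `Good` is invariant under the stabiliser of the pair `{x₀, ν x₀}` -/
theorem Dat.good_act (D : Dat H T act ν x₀) {a : Γ} (ha : a ∈ T) (h : act a x₀ = x₀ ∨ act a x₀ = ν x₀) {y : X}
    (hy : Good T act ν x₀ y) : Good T act ν x₀ (act a y) := by
  obtain ⟨g, hg, h1, h2⟩ := hy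
  refine ⟨a * g * a⁻¹, T.mul_mem (T.mul_mem ha hg) (T.inv_mem ha), ?_, ?_⟩
  · rw [D.mul, D.mul]
    rcases h with h | h
    · have h3 : act a⁻¹ x₀ = x₀ := by
        conv_lhs => rw [← h]
        exact D.inv_act a x₀
      rw [h3, h1, D.comm _ (D.le ha), h]
    · have h3 : act a⁻¹ x₀ = ν x₀ := by
        conv_lhs => rw [← D.nn, D.comm _ (H.inv_mem (D.le ha)), ← h, D.inv_act]
      rw [h3, D.comm _ (D.le hg), h1, D.nn, h]
  · rw [D.mul, D.mul, D.inv_act]
    rcases h2 with h2 | h2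
    · left
      rw [h2]
    · right
      rw [h2, D.comm _ (D.le ha)]

theorem Dat.good_neg (D : Dat H T act ν x₀) {y : X} (hy : Good T act ν x₀ y) : Good T act ν x₀ (ν y) := by
  obtain ⟨g, hg, h1, h2⟩ := hy
  refine ⟨g, hg, h1, ?_⟩
  rw [D.comm _ (D.le hg)]
  rcases h2 with h2 | h2
  · left
    rw [h2]
  · right
    rw [h2]

/-- the stabiliser of the pair -/
def Dat.A (D : Dat H T act ν x₀) : Subgroup T where
  carrier := {g | act g x₀ = x₀ ∨ act g x₀ = ν x₀}
  one_mem' := Or.inl (D.one x₀)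
  mul_mem' := by
    intro a b ha hb
    change act (a * b : Γ) x₀ = x₀ ∨ act (a * b : Γ) x₀ = ν x₀
    rw [D.mul]
    rcases hb with hb | hb
    · rw [hb]
      exact ha
    · rw [hb, D.comm _ (D.le a.2)]
      rcases ha with ha | ha
      · right
        rw [ha]
      · left
        rw [ha, D.nn]
  inv_mem' := fun {a} ha => D.inv_pm a.2 ha

/-- the stabiliser of the object -/
def Dat.B (D : Dat H T act ν x₀) : Subgroup T where
  carrier := {g | act g x₀ = x₀}
  one_mem' := D.one x₀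
  mul_mem' := by
    intro a b ha hb
    change act (a * b : Γ) x₀ = x₀
    rw [D.mul, show act b x₀ = x₀ from hb]
    exact ha
  inv_mem' := by
    intro a ha
    change act (a⁻¹ : Γ) x₀ = x₀
    conv_lhs => rw [← show act a x₀ = x₀ from ha]
    exact D.inv_act a x₀

/-- **The criterion.** -/
theorem Dat.pairAut (D : Dat H T act ν x₀) (hmove : ∃ t ∈ T, act t x₀ ≠ x₀ ∧ act t x₀ ≠ ν x₀)
    (haut : ∀ τ : MulAut T, ∃ h ∈ H, ∀ t : T, (τ t : Γ) = h * t * h⁻¹)
    (hgood : ∀ h ∈ H, Good T act ν x₀ (act h x₀)) : PairAut T := by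
  refine ⟨D.A, D.B, isPairAut_of_index_two ?_ (fun g hg => Or.inl hg) ?_ ?_⟩
  · obtain ⟨t, ht, h1, h2⟩ := hmove
    intro h
    have h3 : (⟨t, ht⟩ : T) ∈ D.A := h ▸ Subgroup.mem_top _
    exact h3.elim h1 h2
  · intro x hx y hy hxB hyB
    change act (x * y : Γ) x₀ = x₀
    rw [D.mul, hy.resolve_left hyB, D.comm _ (D.le x.2), hx.resolve_left hxB, D.nn]
  · intro τ
    obtain ⟨h, hh, hτ⟩ := haut τ
    obtain ⟨g, hg, h1, h2⟩ := hgood h⁻¹ (H.inv_mem hh)
    refine ⟨⟨g, hg⟩, Or.inr h1, ?_, fun h3 => D.ne (h1.symm.trans h3)⟩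
    change act (τ ⟨g, hg⟩ : Γ) x₀ = x₀ ∨ act (τ ⟨g, hg⟩ : Γ) x₀ = ν x₀
    rw [hτ, D.mul, D.mul]
    rcases h2 with h2 | h2
    · left
      rw [h2, D.act_inv]
    · right
      rw [h2, D.comm _ hh, D.act_inv]

/-- a set of objects closed under generators of a finite group is closed under the group -/
theorem closed_of_gens [Finite Γ] {act : Γ → X → X} (h1 : ∀ x, act 1 x = x)
    (hm : ∀ g h x, act (g * h) x = act g (act h x)) (S : X → Prop) {s : Set Γ}
    (hs : ∀ g ∈ s, ∀ y, S y → S (act g y)) {g : Γ} (hg : g ∈ Subgroup.closure s) : ∀ y, S y → S (act g y) := by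
  have h2 : g ∈ Submonoid.closure s := by
    rw [← Subgroup.closure_toSubmonoid_of_finite]
    exact hg
  clear hg
  induction h2 using Submonoid.closure_induction with
  | mem x hx => exact hs x hx
  | one => intro y hy; rwa [h1]
  | mul a b _ _ ha hb => intro y hy; rw [hm]; exact ha _ (hb _ hy)

/-- automorphisms of a group with `|Out| = 1` -/
theorem inner_of_index_one {K : Type*} [Group K] (h : (MulAut.conj : K →* MulAut K).range.index = 1)
    (τ : MulAut K) : ∃ k : K, τ = MulAut.conj k := by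
  rw [Subgroup.index_eq_one] at h
  have h1 : τ ∈ (MulAut.conj : K →* MulAut K).range := h ▸ Subgroup.mem_top _
  obtain ⟨k, hk⟩ := h1
  exact ⟨k, hk.symm⟩

/-- automorphisms of a group with `|Out| = 2` -/
theorem inner_or_of_index_two {K : Type*} [Group K] (h : (MulAut.conj : K →* MulAut K).range.index = 2)
    {β : MulAut K} (hβ : ∀ k, β ≠ MulAut.conj k) (τ : MulAut K) :
    (∃ k : K, τ = MulAut.conj k) ∨ ∃ k : K, τ = MulAut.conj k * β := by
  by_cases h1 : τ ∈ (MulAut.conj : K →* MulAut K).range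
  · obtain ⟨k, hk⟩ := h1
    exact Or.inl ⟨k, hk.symm⟩
  · have h2 : β⁻¹ ∉ (MulAut.conj : K →* MulAut K).range := by
      intro h3
      obtain ⟨k, hk⟩ := (Subgroup.inv_mem_iff _).1 h3
      exact hβ k hk.symm
    obtain ⟨k, hk⟩ := (Subgroup.mul_mem_iff_of_index_two h).2 (iff_of_false h1 h2)
    exact Or.inr ⟨k, by rw [hk, inv_mul_cancel_right]⟩

end Cfsg.Agent.SP.PM
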