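import Cfsg.Agent.SP.Pos.A.PM
import Cfsg.Agent.SporadicA.GolayPerm
import Cfsg.Prelude.Def_Spor_Mathieu

/-!
# S5755, positive rows: oriented triples of points (helper22)

The object is the three-cycle `tri a b c` of the full symmetric group, the sign is inversion.
-/

set_option autoImplicit false

namespace Cfsg.Agent.SP.Tri

open Equiv Cfsg.Agent.SporadicA.GolayBase Cfsg.Agent.SporadicA.GolayPerm Cfsg.Agent.SP.PM
open scoped Pointwise

section General

variable {α : Type*} [DecidableEq α]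

/-- the three-cycle `a ↦ b ↦ c ↦ a` -/
def tri (a b c : α) : Perm α := swap a b * swap b c

/-- conjugation -/
def cj {G : Type*} [Group G] (g x : G) : G := g * x * g⁻¹

theorem cj_tri (g : Perm α) (a b c : α) : cj g (tri a b c) = tri (g a) (g b) (g c) := by
  unfold cj tri
  rw [swap_apply_apply, swap_apply_apply]
  group

theorem tri_inv (a b c : α) : (tri a b c)⁻¹ = tri c b a := by
  unfold tri
  rw [mul_inv_rev, swap_inv, swap_inv, swap_comm c b, swap_comm b a]

theorem tri_fst {a b c : α} (hab : a ≠ b) (hac : a ≠ c) : tri a b c a = b := by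
  unfold tri
  rw [Perm.mul_apply, swap_apply_of_ne_of_ne hab hac, swap_apply_left]

theorem tri_thd (a b c : α) : tri a b c c = a := by
  unfold tri
  rw [Perm.mul_apply, swap_apply_right, swap_apply_right]

theorem tri_out {a b c x : α} (ha : x ≠ a) (hb : x ≠ b) (hc : x ≠ c) : tri a b c x = x := by
  unfold tri
  rw [Perm.mul_apply, swap_apply_of_ne_of_ne hb hc, swap_apply_of_ne_of_ne ha hb]

theorem tri_rot {a b c : α} (hab : a ≠ b) (hac : a ≠ c) : tri b c a = tri a b c := by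
  unfold tri
  have h := swap_apply_apply (swap b c) c a
  rw [swap_apply_right, swap_apply_of_ne_of_ne hab hac, swap_inv] at h
  rw [swap_comm a b, h, mul_assoc, swap_mul_self, mul_one]

theorem tri_stab {d e f : α} (hde : d ≠ e) (hdf : d ≠ f) (hef : e ≠ f) {g : Perm α}
    (hd : g d = d ∨ g d = e ∨ g d = f) (he : g e = d ∨ g e = e ∨ g e = f) (hf : g f = d ∨ g f = e ∨ g f = f) :
    cj g (tri d e f) = tri d e f ∨ cj g (tri d e f) = (tri d e f)⁻¹ := by
  have h1 : g d ≠ g e := fun h => hde (g.injective h)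
  have h2 : g d ≠ g f := fun h => hdf (g.injective h)
  have h3 : g e ≠ g f := fun h => hef (g.injective h)
  have r1 : tri e f d = tri d e f := tri_rot hde hdf
  have r2 : tri f d e = tri e f d := tri_rot hef hde.symm
  have r3 : tri e d f = tri f e d := tri_rot hef.symm hdf.symm
  have r4 : tri d f e = tri e d f := tri_rot hde.symm hef
  rw [cj_tri, tri_inv]
  rcases hd with hd | hd | hd <;> rcases he with he | he | he <;> rcases hf with hf | hf | hf <;>
    rw [hd, he] at h1 <;> rw [hd, hf] at h2 <;> rw [he, hf] at h3 <;> rw [hd, he, hf] <;>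
    first
      | exact absurd rfl h1
      | exact absurd rfl h2
      | exact absurd rfl h3
      | exact Or.inl rfl
      | exact Or.inr rfl
      | exact Or.inl r1
      | exact Or.inl (r2.trans r1)
      | exact Or.inr r3
      | exact Or.inr (r4.trans r3)

theorem dat_cj {G : Type*} [Group G] {H T : Subgroup G} (hle : T ≤ H) {x : G} (hx : x⁻¹ ≠ x) :
    Dat H T cj (fun y => y⁻¹) x where
  le := hle
  one y := by unfold cj; group
  mul g h y := by unfold cj; group
  comm h _ y := by unfold cj; group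
  nn := inv_inv x
  ne := hx

theorem tri_inv_ne {a b c : α} (hab : a ≠ b) (hac : a ≠ c) (hbc : b ≠ c) : (tri a b c)⁻¹ ≠ tri a b c := by
  intro h
  have h1 := congrArg (fun g : Perm α => g a) h
  simp only [tri_inv] at h1
  rw [tri_thd, tri_fst hab hac] at h1
  exact hbc h1.symm

theorem move {a b c : α} (hab : a ≠ b) (hac : a ≠ c) {t : Perm α} (h1 : t a ≠ a) (h2 : t a ≠ b) (h3 : t a ≠ c) :
    cj t (tri a b c) ≠ tri a b c ∧ cj t (tri a b c) ≠ (tri a b c)⁻¹ := by
  have h4 : cj t (tri a b c) (t a) ≠ t a := by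
    rw [cj_tri, tri_fst (fun h => hab (t.injective h)) (fun h => hac (t.injective h))]
    exact fun h => hab (t.injective h).symm
  constructor
  · intro h
    exact h4 (by rw [h, tri_out h1 h2 h3])
  · intro h
    exact h4 (by rw [h, tri_inv, tri_out h3 h2 h1])

end General

/-! ### the certificate on the 24 points -/

/-- `x ∈ {i, j, k}` -/
def m3 (x i j k : ℕ) : Bool := Nat.beq x i || Nat.beq x j || Nat.beq x k

theorem m3_iff {x i j k : ℕ} : m3 x i j k = true ↔ x = i ∨ x = j ∨ x = k := by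
  simp [m3, or_assoc]

/-- `P` keeps `{i, j, k}` -/
def st (i j k P : ℕ) : Bool := m3 (papp P i) i j k && m3 (papp P j) i j k && m3 (papp P k) i j k

/-- every monochromatic triple of a non-zero colour is kept by a member of `L` -/
def covB (L : List ℕ) (cl : ℕ → ℕ) : Bool :=
  (List.range 24).all fun i => (List.range i).all fun j => (List.range j).all fun k =>
    Nat.beq (cl i) 0 || !(Nat.beq (cl i) (cl j)) || !(Nat.beq (cl j) (cl k)) || L.any (st i j k)

/-- `P` is a transposition on `{0, 1, 2}` -/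
def oddB (P : ℕ) : Bool :=
  (Nat.beq (papp P 0) 1 && Nat.beq (papp P 1) 0 && Nat.beq (papp P 2) 2) ||
  (Nat.beq (papp P 0) 0 && Nat.beq (papp P 1) 2 && Nat.beq (papp P 2) 1) ||
  (Nat.beq (papp P 0) 2 && Nat.beq (papp P 1) 1 && Nat.beq (papp P 2) 0)

/-- the base object -/
def x0 : Perm GolayPt := tri (pt 0) (pt 1) (pt 2)

theorem cov_sorted {L : List ℕ} {cl : ℕ → ℕ} (h : covB L cl = true) {i j k : ℕ} (hi : i < 24) (hj : j < i)
    (hk : k < j) (h0 : cl i ≠ 0) (h1 : cl i = cl j) (h2 : cl j = cl k) :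
    ∃ P ∈ L, ∀ x, (x = i ∨ x = j ∨ x = k) → (papp P x = i ∨ papp P x = j ∨ papp P x = k) := by
  have h3 := List.all_eq_true.1 (List.all_eq_true.1 (List.all_eq_true.1 h i (List.mem_range.2 hi)) j
    (List.mem_range.2 hj)) k (List.mem_range.2 hk)
  have h4 : L.any (st i j k) = true := by
    simp only [Bool.or_eq_true, Nat.beq_eq, Bool.not_eq_true', ← Bool.not_eq_true] at h3
    rcases h3 with ((h3 | h3) | h3) | h3
    exacts [absurd h3 h0, absurd h1 h3, absurd h2 h3, h3]
  obtain ⟨P, hP, h5⟩ := List.any_eq_true.1 h4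
  simp only [st, Bool.and_eq_true, m3_iff] at h5
  refine ⟨P, hP, ?_⟩
  rintro x (rfl | rfl | rfl)
  exacts [h5.1.1, h5.1.2, h5.2]

theorem cov_all {L : List ℕ} {cl : ℕ → ℕ} (h : covB L cl = true) {i j k : ℕ} (hi : i < 24) (hj : j < 24)
    (hk : k < 24) (hij : i ≠ j) (hik : i ≠ k) (hjk : j ≠ k) (h0 : cl i ≠ 0) (h1 : cl i = cl j) (h2 : cl j = cl k) :
    ∃ P ∈ L, ∀ x, (x = i ∨ x = j ∨ x = k) → (papp P x = i ∨ papp P x = j ∨ papp P x = k) := by
  have hc : (j < i ∧ k < j) ∨ (k < i ∧ j < k) ∨ (i < j ∧ k < i) ∨ (k < j ∧ i < k) ∨ (i < k ∧ j < i) ∨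
      (j < k ∧ i < j) := by omega
  rcases hc with ⟨a, b⟩ | ⟨a, b⟩ | ⟨a, b⟩ | ⟨a, b⟩ | ⟨a, b⟩ | ⟨a, b⟩
  · exact cov_sorted h hi a b h0 h1 h2
  · obtain ⟨P, hP, hx⟩ := cov_sorted h hi a b h0 (by omega) (by omega)
    exact ⟨P, hP, fun x hx' => by have := hx x (by tauto); tauto⟩
  · obtain ⟨P, hP, hx⟩ := cov_sorted h hj a b (by omega) (by omega) (by omega)
    exact ⟨P, hP, fun x hx' => by have := hx x (by tauto); tauto⟩
  · obtain ⟨P, hP, hx⟩ := cov_sorted h hj a b (by omega) (by omega) (by omega)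
    exact ⟨P, hP, fun x hx' => by have := hx x (by tauto); tauto⟩
  · obtain ⟨P, hP, hx⟩ := cov_sorted h hk a b (by omega) (by omega) (by omega)
    exact ⟨P, hP, fun x hx' => by have := hx x (by tauto); tauto⟩
  · obtain ⟨P, hP, hx⟩ := cov_sorted h hk a b (by omega) (by omega) (by omega)
    exact ⟨P, hP, fun x hx' => by have := hx x (by tauto); tauto⟩

theorem p01 : pt 0 ≠ pt 1 := by decide
theorem p02 : pt 0 ≠ pt 2 := by decide
theorem p12 : pt 1 ≠ pt 2 := by decide

theorem cj_odd {P : ℕ} (hP : isPerm P = true) (h : oddB P = true) : cj (permOf P hP) x0 = x0⁻¹ := by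
  unfold x0
  rw [cj_tri, tri_inv, permOf_apply, permOf_apply, permOf_apply, idx_pt (by norm_num), idx_pt (by norm_num),
    idx_pt (by norm_num)]
  simp only [oddB, Bool.or_eq_true, Bool.and_eq_true, Nat.beq_eq] at h
  rcases h with (⟨⟨h0, h1⟩, h2⟩ | ⟨⟨h0, h1⟩, h2⟩) | ⟨⟨h0, h1⟩, h2⟩ <;> rw [h0, h1, h2]
  · exact tri_rot p12.symm p02.symm
  · exact (tri_rot p01.symm p12).trans (tri_rot p12.symm p02.symm)

/-- **The certificate.** -/
theorem good_of_cov {T : Subgroup (Perm GolayPt)} {L : List ℕ} {cl : ℕ → ℕ}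
    (hL : ∀ P ∈ L, ∃ hP : isPerm P = true, permOf P hP ∈ T ∧ oddB P = true) (h : covB L cl = true)
    (g : Perm GolayPt) (h0 : cl (idx (g (pt 0))) ≠ 0) (h1 : cl (idx (g (pt 0))) = cl (idx (g (pt 1))))
    (h2 : cl (idx (g (pt 1))) = cl (idx (g (pt 2)))) : Good T cj (fun y => y⁻¹) x0 (cj g x0) := by
  have n1 : g (pt 0) ≠ g (pt 1) := fun h => p01 (g.injective h)
  have n2 : g (pt 0) ≠ g (pt 2) := fun h => p02 (g.injective h)
  have n3 : g (pt 1) ≠ g (pt 2) := fun h => p12 (g.injective h)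
  obtain ⟨P, hP, hx⟩ := cov_all h (idx_lt _) (idx_lt _) (idx_lt _) (fun h => n1 (idx_injective h))
    (fun h => n2 (idx_injective h)) (fun h => n3 (idx_injective h)) h0 h1 h2
  obtain ⟨hp, hT, ho⟩ := hL P hP
  refine ⟨permOf P hp, hT, cj_odd hp ho, ?_⟩
  have key : ∀ p, (p = g (pt 0) ∨ p = g (pt 1) ∨ p = g (pt 2)) →
      (permOf P hp p = g (pt 0) ∨ permOf P hp p = g (pt 1) ∨ permOf P hp p = g (pt 2)) := by
    intro p hp'
    have h3 := hx (idx p) (by rcases hp' with rfl | rfl | rfl <;> simp)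
    rw [← idx_permOf hp] at h3
    exact h3.imp (fun h => idx_injective h) (Or.imp (fun h => idx_injective h) (fun h => idx_injective h))
  unfold x0
  rw [cj_tri g]
  exact tri_stab n1 n2 n3 (key _ (by simp)) (key _ (by simp)) (key _ (by simp))

theorem x0_ne : x0⁻¹ ≠ x0 := tri_inv_ne p01 p02 p12

theorem move0 {P : ℕ} (hP : isPerm P = true) (h : 3 ≤ papp P 0) :
    cj (permOf P hP) x0 ≠ x0 ∧ cj (permOf P hP) x0 ≠ x0⁻¹ := by
  have h1 : idx (permOf P hP (pt 0)) = papp P 0 := by rw [idx_permOf, idx_pt (by norm_num)]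
  refine move p01 p02 ?_ ?_ ?_ <;> intro h2 <;> rw [h2, idx_pt (by norm_num)] at h1 <;> omega

theorem sq_eq : Spor.squareDodecad = fin 340831 := by
  have h := word_qrMask 0
  unfold Spor.squareDodecad
  rw [← h, support₂_word]
  rfl

theorem mem_M12 {P : ℕ} (hP : isPerm P = true) (hA : isAut P = true) (h : pimg P 340831 = 340831) :
    permOf P hP ∈ Spor.M12 := by
  refine Subgroup.mem_inf.2 ⟨permOf_mem_M24 hP hA, ?_⟩
  rw [MulAction.mem_stabilizer_iff, sq_eq, smul_fin, h]

end Cfsg.Agent.SP.Tri
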